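import Mathlib
import Cfsg.Agent.Lib.Helper51.Zass.Defs

/-!
# Project ZASS (S0690), package [ZH]: the cut into sub-packages

`point` = subgroup of order 3; `P ~ Q` (adjacent) iff `Nat.card (P ⊔ Q) = 24`.
`Geo G` collects the incidence facts (consequences of PAIR, T1, STR24, STR120, UI, CONJ); the
counting packages use only `Geo G`.  The assembly `pkgZh_of` is at the end of this file.
-/

set_option autoImplicit false

namespace Cfsg.Agent.Lib.Helper3.Zass

open Cfsg.Agent.Lib.Helper51.Zass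

universe u

/-- the incidence geometry of the points (subgroups of order 3), lines and planes of `G` -/
structure Geo (G : Type u) [Group G] : Prop where
  /-- two distinct points span a line or a plane -/
  pair : ∀ P Q : Subgroup G, Nat.card P = 3 → Nat.card Q = 3 → P ≠ Q →
    IsLine (P ⊔ Q) ∨ IsPlane (P ⊔ Q)
  /-- two distinct lines through a point span a plane -/
  t1 : ∀ W L M : Subgroup G, Nat.card W = 3 → IsLine L → IsLine M → W ≤ L → W ≤ M → L ≠ M →
    IsPlane (L ⊔ M)
  /-- a line has exactly four points -/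
  line4 : ∀ L : Subgroup G, IsLine L →
    Set.ncard {P : Subgroup G | Nat.card P = 3 ∧ P ≤ L} = 4
  /-- two distinct points of a line span it -/
  lineGen : ∀ L P Q : Subgroup G, IsLine L → Nat.card P = 3 → Nat.card Q = 3 → P ≤ L → Q ≤ L →
    P ≠ Q → P ⊔ Q = L
  /-- a point of a plane has exactly six neighbours in the plane -/
  plane6 : ∀ Pl P : Subgroup G, IsPlane Pl → Nat.card P = 3 → P ≤ Pl →
    Set.ncard {Q : Subgroup G | Nat.card Q = 3 ∧ Q ≤ Pl ∧ Nat.card ↥(P ⊔ Q) = 24} = 6
  /-- two points spanning a plane have exactly four common neighbours in it -/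
  plane4 : ∀ Pl P Q : Subgroup G, IsPlane Pl → Nat.card P = 3 → Nat.card Q = 3 → P ≤ Pl →
    Q ≤ Pl → P ⊔ Q = Pl →
    Set.ncard {R : Subgroup G | Nat.card R = 3 ∧ R ≤ Pl ∧ Nat.card ↥(P ⊔ R) = 24 ∧
      Nat.card ↥(Q ⊔ R) = 24} = 4
  /-- two adjacent points of a plane have exactly one common neighbour in it off their line -/
  plane1 : ∀ Pl P Q : Subgroup G, IsPlane Pl → Nat.card P = 3 → Nat.card Q = 3 → P ≤ Pl →
    Q ≤ Pl → Nat.card ↥(P ⊔ Q) = 24 →
    Set.ncard {R : Subgroup G | Nat.card R = 3 ∧ R ≤ Pl ∧ ¬ R ≤ P ⊔ Q ∧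
      Nat.card ↥(P ⊔ R) = 24 ∧ Nat.card ↥(Q ⊔ R) = 24} = 1
  /-- all points are conjugate -/
  conj : ∀ P Q : Subgroup G, Nat.card P = 3 → Nat.card Q = 3 →
    ∃ g : G, Q = P.map (MulAut.conj g).toMonoidHom
  /-- a line has order 24 -/
  lineCard : ∀ L : Subgroup G, IsLine L → Nat.card L = 24
  /-- a plane has order 120 -/
  planeCard : ∀ Pl : Subgroup G, IsPlane Pl → Nat.card Pl = 120

/-- [ZH-GEO] the incidence geometry from the packages PAIR, T1, STR24, STR120, UI, CONJ.
(`pair`: `P = zpowers a`, `P ⊔ Q = closure {a, b}`, the shapes `card = 1`, `card = 3` are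
impossible.  `t1`: by `line4`/`lineGen` of `L`, `M` pick points `A ≤ L`, `B ≤ M` other than
`W = zpowers w`; `L = closure {w, a}`, `M = closure {w, b}`, `L ⊔ M = closure {w, a, b}`.
`line4`, `lineGen`, `plane*`: `h24`, `h120` with `hUI`.  `lineCard`, `planeCard`:
`|H| = |ker f| * |A₄|` resp. `|A₅|`.) -/
def PkgZhGeo : Prop :=
  ∀ (G : Type u) [Group G] [Finite G], IsFpfLin G → Geo G

/-- [ZH-DEG] the number of neighbours of a point is three times the number of lines through
it.  (`Q ~ P` iff `Q ≠ P` lies on a line through `P`, namely `P ⊔ Q`; two lines through `P`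
share no other point; each line has three points other than `P`.) -/
def PkgZhDeg : Prop :=
  ∀ (G : Type u) [Group G] [Finite G], Geo G → ∀ P : Subgroup G, Nat.card P = 3 →
    Set.ncard {Q : Subgroup G | Nat.card Q = 3 ∧ Nat.card ↥(P ⊔ Q) = 24} =
      3 * Set.ncard {L : Subgroup G | IsLine L ∧ P ≤ L}

/-- [ZH-LCONST] all points lie on the same number of lines (conjugation; `IsLine` is invariant
under `Subgroup.map (MulAut.conj g).toMonoidHom`). -/
def PkgZhLConst : Prop :=
  ∀ (G : Type u) [Group G] [Finite G], Geo G → ∀ P Q : Subgroup G, Nat.card P = 3 →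
    Nat.card Q = 3 →
    Set.ncard {L : Subgroup G | IsLine L ∧ P ≤ L} = Set.ncard {L : Subgroup G | IsLine L ∧ Q ≤ L}

/-- [ZH-LAM] two adjacent points have `l + 1` common neighbours, `l` the number of lines
through the first. -/
def PkgZhLam : Prop :=
  ∀ (G : Type u) [Group G] [Finite G], Geo G → ∀ P Q : Subgroup G, Nat.card P = 3 →
    Nat.card Q = 3 → Nat.card ↥(P ⊔ Q) = 24 →
    Set.ncard {R : Subgroup G | Nat.card R = 3 ∧ Nat.card ↥(P ⊔ R) = 24 ∧
      Nat.card ↥(Q ⊔ R) = 24} = Set.ncard {L : Subgroup G | IsLine L ∧ P ≤ L} + 1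

/-- [ZH-MU] two distinct non-adjacent points have exactly four common neighbours. -/
def PkgZhMu : Prop :=
  ∀ (G : Type u) [Group G] [Finite G], Geo G → ∀ P Q : Subgroup G, Nat.card P = 3 →
    Nat.card Q = 3 → P ≠ Q → Nat.card ↥(P ⊔ Q) ≠ 24 →
    Set.ncard {R : Subgroup G | Nat.card R = 3 ∧ Nat.card ↥(P ⊔ R) = 24 ∧
      Nat.card ↥(Q ⊔ R) = 24} = 4

/-- [ZH-BIG] at most two lines through a point (else the points form a strongly regular graph
with parameters `(v, 3 l, l + 1, 4)`, `l ≥ 3`). -/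
def PkgZhBig : Prop :=
  ∀ (G : Type u) [Group G] [Finite G], Geo G → ∀ P : Subgroup G, Nat.card P = 3 →
    Set.ncard {L : Subgroup G | IsLine L ∧ P ≤ L} ≤ 2

/-- [ZH-SMALL] with at most two lines through each point, `N3 G` has one of the four
shapes. -/
def PkgZhSmall : Prop :=
  ∀ (G : Type u) [Group G] [Finite G], Geo G →
    (∀ P : Subgroup G, Nat.card P = 3 → Set.ncard {L : Subgroup G | IsLine L ∧ P ≤ L} ≤ 2) →
    Shape (N3 G)

/-- the assembly of [ZH] -/
theorem pkgZh_of (hGeo : PkgZhGeo.{u}) (hBig : PkgZhBig.{u}) (hSmall : PkgZhSmall.{u}) :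
    PkgZh.{u} := by
  intro G _ _ hG
  exact hSmall G (hGeo G hG) (hBig G (hGeo G hG))

end Cfsg.Agent.Lib.Helper3.Zass
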