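import Mathlib
import Cfsg.Agent.Lib.Helper3.Zass.ZhDefs

/-!
# Project ZASS (S0690), sub-package [ZH-SMALL]

With at most two lines through each point, `N3 G` is trivial, a point, a line or a plane.
-/

set_option autoImplicit false

namespace Cfsg.Agent.Lib.Helper3.Zass

open Cfsg.Agent.Lib.Helper51.Zass

universe u

theorem mem_pair_of_ncard_le_two {α : Type*} [Finite α] (s : Set α) (hs : s.ncard ≤ 2)
    (a b c : α) (ha : a ∈ s) (hb : b ∈ s) (hc : c ∈ s) (hab : a ≠ b) : c = a ∨ c = b := by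
  by_contra h
  push Not at h
  have hsub : ({a, b, c} : Set α) ⊆ s := by
    intro x hx
    rcases hx with rfl | rfl | rfl
    · exact ha
    · exact hb
    · exact hc
  have h3 : ({a, b, c} : Set α).ncard = 3 :=
    Set.ncard_eq_three.mpr ⟨a, b, c, hab, fun e => h.1 e.symm, fun e => h.2 e.symm, rfl⟩
  have hle := Set.ncard_le_ncard hsub (Set.toFinite s)
  omega

section

variable {G : Type u} [Group G]

theorem point_le_N3 (P : Subgroup G) (hP : Nat.card P = 3) : P ≤ N3 G := by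
  intro x hx
  by_cases h1 : x = 1
  · rw [h1]
    exact one_mem _
  · have hd : orderOf x ∣ 3 := by
      rw [← hP]
      exact Subgroup.orderOf_dvd_natCard P hx
    have h3 : orderOf x = 3 := by
      rcases (Nat.dvd_prime Nat.prime_three).mp hd with h | h
      · exact absurd (orderOf_eq_one_iff.mp h) h1
      · exact h
    exact Subgroup.subset_closure h3

theorem N3_le (H : Subgroup G) (h : ∀ P : Subgroup G, Nat.card P = 3 → P ≤ H) : N3 G ≤ H := by
  unfold N3
  rw [Subgroup.closure_le]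
  intro g hg
  have hg3 : orderOf g = 3 := hg
  exact h (Subgroup.zpowers g) (by rw [Nat.card_zpowers, hg3]) (Subgroup.mem_zpowers g)

theorem adj_ne {P Q : Subgroup G} (hP : Nat.card P = 3) (h : Nat.card ↥(P ⊔ Q) = 24) :
    P ≠ Q := by
  rintro rfl
  rw [sup_idem] at h
  omega

theorem Geo.line_of_adj (hGeo : Geo G) {P Q : Subgroup G} (hP : Nat.card P = 3)
    (hQ : Nat.card Q = 3) (h : Nat.card ↥(P ⊔ Q) = 24) : IsLine (P ⊔ Q) := by
  rcases hGeo.pair P Q hP hQ (adj_ne hP h) with h1 | h1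
  · exact h1
  · have h2 := hGeo.planeCard _ h1
    omega

theorem Geo.plane_of_not_adj (hGeo : Geo G) {P Q : Subgroup G} (hP : Nat.card P = 3)
    (hQ : Nat.card Q = 3) (hne : P ≠ Q) (h : Nat.card ↥(P ⊔ Q) ≠ 24) : IsPlane (P ⊔ Q) := by
  rcases hGeo.pair P Q hP hQ hne with h1 | h1
  · exact absurd (hGeo.lineCard _ h1) h
  · exact h1

variable [Finite G]

/-- a point of a plane lies on two distinct lines of the plane -/
theorem Geo.two_lines_in_plane (hGeo : Geo G) {Pl P : Subgroup G} (hPl : IsPlane Pl)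
    (hP : Nat.card P = 3) (hPPl : P ≤ Pl) :
    ∃ L1 L2 : Subgroup G, IsLine L1 ∧ IsLine L2 ∧ P ≤ L1 ∧ P ≤ L2 ∧ L1 ≠ L2 ∧ L1 ≤ Pl ∧
      L2 ≤ Pl := by
  have h6 := hGeo.plane6 Pl P hPl hP hPPl
  have hne : {Q : Subgroup G | Nat.card Q = 3 ∧ Q ≤ Pl ∧ Nat.card ↥(P ⊔ Q) = 24}.Nonempty := by
    rw [← Set.ncard_pos (Set.toFinite _)]
    omega
  obtain ⟨N1, hN1, hN1Pl, hN1a⟩ := hne
  have hL1 := hGeo.line_of_adj hP hN1 hN1a
  have h4 := hGeo.line4 _ hL1
  have hex : ∃ N2 : Subgroup G, (Nat.card N2 = 3 ∧ N2 ≤ Pl ∧ Nat.card ↥(P ⊔ N2) = 24) ∧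
      ¬ N2 ≤ P ⊔ N1 := by
    by_contra hcon
    push Not at hcon
    have hsub : {Q : Subgroup G | Nat.card Q = 3 ∧ Q ≤ Pl ∧ Nat.card ↥(P ⊔ Q) = 24} ⊆
        {Q : Subgroup G | Nat.card Q = 3 ∧ Q ≤ P ⊔ N1} := by
      intro Q hQ
      exact ⟨hQ.1, hcon Q hQ⟩
    have hle := Set.ncard_le_ncard hsub (Set.toFinite _)
    omega
  obtain ⟨N2, ⟨hN2, hN2Pl, hN2a⟩, hN2L⟩ := hex
  refine ⟨P ⊔ N1, P ⊔ N2, hL1, hGeo.line_of_adj hP hN2 hN2a, le_sup_left, le_sup_left, ?_,
    sup_le hPPl hN1Pl, sup_le hPPl hN2Pl⟩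
  intro heq
  apply hN2L
  rw [heq]
  exact le_sup_right

theorem Geo.line_le_N3 (hGeo : Geo G) {L : Subgroup G} (hL : IsLine L) : L ≤ N3 G := by
  have h4 := hGeo.line4 L hL
  have h1 : 1 < {P : Subgroup G | Nat.card P = 3 ∧ P ≤ L}.ncard := by omega
  obtain ⟨A, hA, B, hB, hAB⟩ := (Set.one_lt_ncard (Set.toFinite _)).mp h1
  rw [← hGeo.lineGen L A B hL hA.1 hB.1 hA.2 hB.2 hAB]
  exact sup_le (point_le_N3 A hA.1) (point_le_N3 B hB.1)

end

/-- [ZH-SMALL] -/
theorem pkgZhSmall : PkgZhSmall.{u} := by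
  intro G _ _ hGeo hl
  classical
  by_cases hne : ∃ P : Subgroup G, Nat.card P = 3
  swap
  · left
    have hbot : N3 G = ⊥ := by
      rw [eq_bot_iff]
      apply N3_le
      intro P hP
      exact absurd ⟨P, hP⟩ hne
    rw [hbot]
    exact Subgroup.card_bot
  obtain ⟨P, hP⟩ := hne
  have hl2 := hl P hP
  by_cases h2 : ∃ L1 L2 : Subgroup G, IsLine L1 ∧ IsLine L2 ∧ P ≤ L1 ∧ P ≤ L2 ∧ L1 ≠ L2
  · obtain ⟨L1, L2, hL1, hL2, hP1, hP2, h12⟩ := h2
    have hall : ∀ M : Subgroup G, IsLine M → P ≤ M → M = L1 ∨ M = L2 := by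
      intro M hM hPM
      exact mem_pair_of_ncard_le_two _ hl2 L1 L2 M ⟨hL1, hP1⟩ ⟨hL2, hP2⟩ ⟨hM, hPM⟩ h12
    have hPl := hGeo.t1 P L1 L2 hP hL1 hL2 hP1 hP2 h12
    have hpts : ∀ Q : Subgroup G, Nat.card Q = 3 → Q ≤ L1 ⊔ L2 := by
      intro Q hQ
      by_cases hPQ : P = Q
      · rw [← hPQ]
        exact le_trans hP1 le_sup_left
      by_cases hadj : Nat.card ↥(P ⊔ Q) = 24
      · have hQle : Q ≤ P ⊔ Q := le_sup_right
        rcases hall _ (hGeo.line_of_adj hP hQ hadj) le_sup_left with h | h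
        · rw [h] at hQle
          exact le_trans hQle le_sup_left
        · rw [h] at hQle
          exact le_trans hQle le_sup_right
      · have hPl' := hGeo.plane_of_not_adj hP hQ hPQ hadj
        obtain ⟨M1, M2, hM1, hM2, hPM1, hPM2, hM12, hM1le, hM2le⟩ :=
          hGeo.two_lines_in_plane hPl' hP le_sup_left
        have hle : L1 ⊔ L2 ≤ P ⊔ Q := by
          rcases hall M1 hM1 hPM1 with h | h <;> rcases hall M2 hM2 hPM2 with h' | h'
          · exact absurd (h.trans h'.symm) hM12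
          · rw [h] at hM1le
            rw [h'] at hM2le
            exact sup_le hM1le hM2le
          · rw [h] at hM1le
            rw [h'] at hM2le
            exact sup_le hM2le hM1le
          · exact absurd (h.trans h'.symm) hM12
        have heq : L1 ⊔ L2 = P ⊔ Q := Subgroup.eq_of_le_of_card_ge hle
          (by rw [hGeo.planeCard _ hPl, hGeo.planeCard _ hPl'])
        rw [heq]
        exact le_sup_right
    have hN : N3 G = L1 ⊔ L2 :=
      le_antisymm (N3_le _ hpts) (sup_le (hGeo.line_le_N3 hL1) (hGeo.line_le_N3 hL2))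
    right; right; right
    rw [hN]
    exact hPl
  · push Not at h2
    have hadj : ∀ Q : Subgroup G, Nat.card Q = 3 → P ≠ Q → Nat.card ↥(P ⊔ Q) = 24 := by
      intro Q hQ hPQ
      by_contra hna
      have hPl' := hGeo.plane_of_not_adj hP hQ hPQ hna
      obtain ⟨M1, M2, hM1, hM2, hPM1, hPM2, hM12, -, -⟩ :=
        hGeo.two_lines_in_plane hPl' hP le_sup_left
      exact hM12 (h2 M1 M2 hM1 hM2 hPM1 hPM2)
    by_cases hother : ∃ Q : Subgroup G, Nat.card Q = 3 ∧ P ≠ Q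
    · obtain ⟨Q0, hQ0, hPQ0⟩ := hother
      have hL := hGeo.line_of_adj hP hQ0 (hadj Q0 hQ0 hPQ0)
      have hpts : ∀ Q : Subgroup G, Nat.card Q = 3 → Q ≤ P ⊔ Q0 := by
        intro Q hQ
        by_cases hPQ : P = Q
        · rw [← hPQ]
          exact le_sup_left
        · have hLQ := hGeo.line_of_adj hP hQ (hadj Q hQ hPQ)
          rw [← h2 (P ⊔ Q) (P ⊔ Q0) hLQ hL le_sup_left le_sup_left]
          exact le_sup_right
      have hN : N3 G = P ⊔ Q0 := le_antisymm (N3_le _ hpts) (hGeo.line_le_N3 hL)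
      right; right; left
      rw [hN]
      exact hL
    · push Not at hother
      have hN : N3 G = P :=
        le_antisymm (N3_le _ (fun Q hQ => by rw [← hother Q hQ])) (point_le_N3 P hP)
      right; left
      rw [hN]
      exact hP

end Cfsg.Agent.Lib.Helper3.Zass
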